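import Groth.Agent.CalgB.CMPoly

/-!
# Polynomial rings at a prime over a Cohen–Macaulay local ring

If `R_p` is Cohen–Macaulay and `m` is a prime of `R[x_1, …, x_n]` over `p`, then `R[x_1, …, x_n]_m` is
Cohen–Macaulay (no hypothesis on the other local rings of `R`).
-/

set_option autoImplicit false

universe u

open Polynomial IsLocalRing

namespace Groth.Agent.Dual.H374.CMPolyLoc

open Groth.Agent.CalgB.CMPoly

theorem cm_atPrime_congr {R : Type u} [CommRing R] (p p' : Ideal R) [p.IsPrime] [p'.IsPrime]
    (h : p = p') (hp : LocCoh.IsCohenMacaulayLocalRing (Localization.AtPrime p)) :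
    LocCoh.IsCohenMacaulayLocalRing (Localization.AtPrime p') := by
  subst h
  exact hp

/-- Transport along a ring isomorphism. -/
theorem cm_atPrime_of_ringEquiv {R S : Type u} [CommRing R] [CommRing S] (e : R ≃+* S)
    (p : Ideal S) [p.IsPrime]
    (h : LocCoh.IsCohenMacaulayLocalRing (Localization.AtPrime (p.comap e))) :
    LocCoh.IsCohenMacaulayLocalRing (Localization.AtPrime p) :=
  isCohenMacaulayLocalRing_of_ringEquiv <| IsLocalization.ringEquivOfRingEquiv
    (M := (p.comap e).primeCompl) (T := p.primeCompl)
    (Localization.AtPrime (p.comap e)) (Localization.AtPrime p) e (by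
      ext x
      constructor
      · rintro ⟨y, hy, rfl⟩
        exact hy
      · intro hx
        exact ⟨e.symm x, by
          change ¬ e (e.symm x) ∈ p
          rwa [e.apply_symm_apply], e.apply_symm_apply x⟩)

/-- One variable. -/
theorem cm_polynomial {R : Type u} [CommRing R] (p : Ideal R[X]) [hp : p.IsPrime]
    (hR : LocCoh.IsCohenMacaulayLocalRing
      (Localization.AtPrime (p.comap (C : R →+* R[X])))) :
    LocCoh.IsCohenMacaulayLocalRing (Localization.AtPrime p) := by
  let q := p.comap (C : R →+* R[X])
  let S := (Localization.AtPrime q)[X]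
  let pc := Submonoid.map (C : R →+* R[X]).toMonoidHom q.primeCompl
  let : Algebra R[X] S := algebra R (Localization.AtPrime q)
  have : IsLocalization pc S := Polynomial.isLocalization _ _
  let pS := p.map (algebraMap R[X] S)
  have disj : Disjoint (pc : Set R[X]) (p : Set R[X]) := by
    simpa [pc, q] using! Set.disjoint_image_left.mpr
      (Set.disjoint_compl_left_iff_subset.mpr (fun _ a ↦ a))
  have : pS.IsPrime := IsLocalization.isPrime_of_isPrime_disjoint pc _ _ ‹_› disj
  have : IsLocalization.AtPrime (Localization.AtPrime pS) p := by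
    convert IsLocalization.isLocalization_isLocalization_atPrime_isLocalization pc
      (Localization.AtPrime pS) pS
    exact (IsLocalization.under_map_of_isPrime_disjoint pc _ ‹_› disj).symm
  have : LocCoh.IsCohenMacaulayLocalRing (Localization.AtPrime q) := hR
  have eq : Ideal.comap C pS = maximalIdeal (Localization.AtPrime q) := by
    rw [← IsLocalization.map_under q.primeCompl _ (Ideal.comap C pS),
      ← IsLocalization.map_under q.primeCompl _ (maximalIdeal (Localization.AtPrime q))]
    simp only [Ideal.comap_comap, S, pS]
    rw [← Polynomial.algebraMap_eq (R := Localization.AtPrime q),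
      ← IsScalarTower.algebraMap_eq R (Localization.AtPrime q) (Localization.AtPrime q)[X],
      IsScalarTower.algebraMap_eq R R[X] (Localization.AtPrime q)[X], ← Ideal.comap_comap,
      ← Ideal.under_def R[X], IsLocalization.under_map_of_isPrime_disjoint pc _ ‹_› disj]
    simp [q, IsLocalization.AtPrime.under_maximalIdeal (Localization.AtPrime q) q]
  have := isCohenMacaulayLocalRing_localization_of_comap_eq pS eq
  exact isCohenMacaulayLocalRing_of_ringEquiv (R := Localization.AtPrime pS)
    (IsLocalization.algEquiv p.primeCompl
      (Localization.AtPrime pS) (Localization.AtPrime p)).toRingEquiv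

/-- Several variables. -/
theorem cm_mvPolynomial {R : Type u} [CommRing R] (n : ℕ) :
    ∀ (p : Ideal (MvPolynomial (Fin n) R)) [p.IsPrime]
      (_ : LocCoh.IsCohenMacaulayLocalRing
        (Localization.AtPrime (p.comap (algebraMap R (MvPolynomial (Fin n) R))))),
      LocCoh.IsCohenMacaulayLocalRing (Localization.AtPrime p) := by
  induction n with
  | zero =>
    intro p hp h
    have e := (MvPolynomial.isEmptyRingEquiv R (Fin 0)).symm
    refine cm_atPrime_of_ringEquiv (MvPolynomial.isEmptyRingEquiv R (Fin 0)).symm p ?_
    refine cm_atPrime_congr _ _ ?_ h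
    ext x
    rw [Ideal.mem_comap, Ideal.mem_comap]
    rfl
  | succ n ih =>
    intro p hp h
    let e : Polynomial (MvPolynomial (Fin n) R) ≃+* MvPolynomial (Fin (n + 1)) R :=
      (MvPolynomial.finSuccEquiv R n).toRingEquiv.symm
    refine cm_atPrime_of_ringEquiv e p ?_
    apply cm_polynomial
    apply ih
    refine cm_atPrime_congr _ _ ?_ h
    ext x
    rw [Ideal.mem_comap, Ideal.mem_comap, Ideal.mem_comap, Ideal.mem_comap]
    have : e (C (algebraMap R (MvPolynomial (Fin n) R) x)) =
        algebraMap R (MvPolynomial (Fin (n + 1)) R) x := by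
      rw [RingEquiv.symm_apply_eq]
      have := (MvPolynomial.finSuccEquiv R n).commutes x
      exact this.symm
    rw [this]

end Groth.Agent.Dual.H374.CMPolyLoc
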