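import Groth.Agent.Dual.H374.ShriekDepth
import Groth.Agent.Dual.H374.CMPolyLoc
import Groth.Agent.Ega4B.DimFT2
import Groth.Agent.Ega4A.FlatAtPrime
import Groth.Agent.Ega4A.CMModule
import Groth.Agent.CalgA.SerreLocal

/-!
# `φ^!(R)` at a prime over a Cohen–Macaulay point of the base: vanishing and `(S_2)`

`R → A` of finite type, `R` Noetherian, `P = R[x_1, …, x_n] → A` surjective, `Q` a prime of `A` such that
`R_{Q ∩ R}` is Cohen–Macaulay and `trdeg_{R/(𝔮 ∩ R)} (A/𝔮) ≤ r` for every minimal prime `𝔮 ⊆ Q` of `A`.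
Then `H^i(φ^!R)_Q = 0` for `i < -r` and `H^{-r}(φ^!R)_Q` satisfies
`min 2 (dim A_q) ≤ depth H^{-r}(φ^!R)_q` at every `q ⊆ Q`; in particular it is `(S_2)`.
-/

set_option autoImplicit false

universe u

open CategoryTheory CategoryTheory.Limits TensorProduct

attribute [local instance] HasDerivedCategory.standard

namespace Groth.Agent.Dual.H374.AffinePt

open DerivedCategory

/-- The bound on transcendence degrees at the generic points through `Q`. -/
def TrdegLE (R : Type u) {A : Type u} [CommRing R] [CommRing A] [Algebra R A] (Q : Ideal A)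
    (r : ℕ) : Prop :=
  ∀ 𝔮 ∈ minimalPrimes A, 𝔮 ≤ Q → Algebra.trdeg (R ⧸ 𝔮.under R) (A ⧸ 𝔮) ≤ (r : Cardinal.{u})

variable {R A : Type u} [CommRing R] [CommRing A] [Algebra R A]

theorem TrdegLE.mono {Q q : Ideal A} {r : ℕ} (h : TrdegLE R Q r) (hq : q ≤ Q) :
    TrdegLE R q r := fun 𝔮 h1 h2 => h 𝔮 h1 (h2.trans hq)

/-- Localizing a Cohen–Macaulay local ring `R_p` at `p' ≤ p`. -/
theorem cm_of_le {R : Type u} [CommRing R] (p p' : Ideal R) [p.IsPrime] [p'.IsPrime] (h : p' ≤ p)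
    (hCM : LocCoh.IsCohenMacaulayLocalRing (Localization.AtPrime p)) :
    LocCoh.IsCohenMacaulayLocalRing (Localization.AtPrime p') := by
  obtain ⟨Q, hQ, hQp⟩ := Groth.Agent.Ega4A.RkBasic.exists_prime_comap_eq p h
  obtain ⟨e⟩ := Groth.Agent.CalgA.SerreLocal.nonempty_localization_localization_equiv p Q
  subst hQp
  let D := Localization.AtPrime p
  let e2 : (Localization.AtPrime Q) ≃ₗ[Localization.AtPrime Q] LocalizedModule Q.primeCompl D :=
    (AlgebraTensorModule.rid D (Localization.AtPrime Q) (Localization.AtPrime Q)).symm ≪≫ₗ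
      (LocalizedModule.isBaseChange Q.primeCompl D).equiv
  have hnt : Nontrivial (LocalizedModule Q.primeCompl D) := e2.symm.toEquiv.nontrivial
  have h1 := Groth.Agent.Ega4A.CMModule.isCohenMacaulayModule_localizedModule (R := D) (M := D)
    LocCoh.IsCohenMacaulayLocalRing.supportDim_eq_depth Q
  rw [Groth.Agent.Ega4A.CMModule.isCohenMacaulayModule_congr e2] at h1
  have h2 : LocCoh.IsCohenMacaulayLocalRing (Localization.AtPrime Q) :=
    { supportDim_eq_depth := h1 }
  exact Groth.Agent.Ega4A.CMModule.isCohenMacaulayLocalRing_of_ringEquiv e.symm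

/-- Heights of the primes between `ker ψ` and `ψ⁻¹ Q`. -/
theorem height_ge [IsNoetherianRing R] (n : ℕ) (ψ : MvPolynomial (Fin n) R →ₐ[R] A)
    (hψ : Function.Surjective ψ)
    (Q : Ideal A) [Q.IsPrime] (r : ℕ) (htr : TrdegLE R Q r)
    (p : Ideal (MvPolynomial (Fin n) R)) [p.IsPrime] (h1 : RingHom.ker ψ.toRingHom ≤ p)
    (h2 : p ≤ Q.comap ψ.toRingHom) : (n : ℕ∞) ≤ p.height + r := by
  have hq : (p.map ψ.toRingHom).IsPrime := Ideal.map_isPrime_of_surjective hψ h1
  obtain ⟨𝔮, h𝔮, hle⟩ := Ideal.exists_minimalPrimes_le (I := (⊥ : Ideal A))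
    (J := p.map ψ.toRingHom) bot_le
  have h𝔮p : 𝔮.IsPrime := h𝔮.1.1
  have h3 : p.map ψ.toRingHom ≤ Q := by
    rw [Ideal.map_le_iff_le_comap]
    exact h2
  have h4 := htr 𝔮 h𝔮 (hle.trans h3)
  let p0 : Ideal (MvPolynomial (Fin n) R) := 𝔮.comap ψ.toRingHom
  have hp0 : p0.IsPrime := inferInstance
  have hp0p : p0 ≤ p := by
    refine (Ideal.comap_mono hle).trans ?_
    exact (Ideal.comap_map_of_surjective' ψ.toRingHom hψ p).le.trans (sup_le le_rfl h1)
  have hlies : p0.LiesOver (𝔮.under R) := ⟨by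
    change 𝔮.comap (algebraMap R A) = (𝔮.comap ψ.toRingHom).comap (algebraMap R _)
    rw [Ideal.comap_comap]
    congr 1
    exact (ψ.comp_algebraMap).symm⟩
  obtain ⟨a, ha, ha2⟩ := Groth.Agent.Ega4B.DimFT2.exists_height_add_trdeg_mvPolynomial_fin n
    (𝔮.under R) p0
  let f0 : (MvPolynomial (Fin n) R ⧸ p0) →+* (A ⧸ 𝔮) := Ideal.quotientMap 𝔮 ψ.toRingHom le_rfl
  let f : (MvPolynomial (Fin n) R ⧸ p0) →ₐ[R ⧸ 𝔮.under R] (A ⧸ 𝔮) :=
    { f0 with
      commutes' := fun x => by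
        obtain ⟨x, rfl⟩ := Ideal.Quotient.mk_surjective x
        change Ideal.Quotient.mk 𝔮 (ψ (algebraMap R _ x)) =
          Ideal.Quotient.mk 𝔮 (algebraMap R A x)
        rw [ψ.commutes] }
  have hf : Function.Bijective f := by
    constructor
    · exact Ideal.quotientMap_injective
    · intro y
      obtain ⟨y, rfl⟩ := Ideal.Quotient.mk_surjective y
      obtain ⟨x, rfl⟩ := hψ y
      exact ⟨Ideal.Quotient.mk _ x, rfl⟩
  have h5 := (AlgEquiv.ofBijective f hf).trdeg_eq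
  rw [ha] at h5
  rw [← h5] at h4
  have h6 : a ≤ r := by exact_mod_cast h4
  have h7 : (n : ℕ∞) ≤ p0.height + a := by
    rw [ha2]
    exact le_add_self
  refine h7.trans ?_
  have h8 : p0.height ≤ p.height := Ideal.height_mono hp0p
  gcongr

section Main

variable [IsNoetherianRing R] (n : ℕ) (ψ : MvPolynomial (Fin n) R →ₐ[R] A)
  (hψ : Function.Surjective ψ)
  [DRing.HasLBaseChange (algebraMap R (MvPolynomial (Fin n) R))]
  {Rψ : Dual.D (MvPolynomial (Fin n) R) ⥤ Dual.D A} (adj : DRing.restrictD ψ.toRingHom ⊣ Rψ)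
  (Q : Ideal A) [Q.IsPrime]
  (hCM : LocCoh.IsCohenMacaulayLocalRing (Localization.AtPrime (Q.under R)))
  (r : ℕ) (htr : TrdegLE R Q r)

omit [IsNoetherianRing R] [DRing.HasLBaseChange (algebraMap R (MvPolynomial (Fin n) R))] in
include hCM in
theorem cm_comap : LocCoh.IsCohenMacaulayLocalRing
    (Localization.AtPrime (Q.comap ψ.toRingHom)) := by
  refine CMPolyLoc.cm_mvPolynomial n _ (CMPolyLoc.cm_atPrime_congr _ _ ?_ hCM)
  rw [Ideal.comap_comap, Ideal.under]
  congr 1
  exact (ψ.comp_algebraMap).symm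

include hψ adj hCM htr in
/-- Vanishing of `H^i(φ^! R)_Q` for `i < -r`. -/
theorem torsion_low (i : ℤ) (hi : i < -(r : ℤ))
    (x : Dual.HD A (Dual2.shriekVia n Rψ (Dual.inD R R)) i) : ∃ s : A, s ∉ Q ∧ s • x = 0 := by
  refine ShriekDepth.torsion_low ψ.toRingHom adj _
    (Groth.Agent.LoccohB.LBC.lbcSelfIso (algebraMap R (MvPolynomial (Fin n) R)) 0) n i (n - r)
    (by omega) Q (cm_comap n ψ Q hCM) (fun p _ h1 h2 => ?_) x
  have := height_ge n ψ hψ Q r htr p h1 h2
  rw [ENat.natCast_sub]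
  exact tsub_le_iff_right.2 this

include hψ adj hCM htr in
/-- The depth estimate at `Q` in degree `-r`. -/
theorem le_depth :
    min (2 : WithBot ℕ∞) (ringKrullDim (Localization.AtPrime Q)) ≤
      ((LocCoh.depth (Localization.AtPrime Q)
        (LocalizedModule Q.primeCompl
          (Dual.HD A (Dual2.shriekVia n Rψ (Dual.inD R R)) (-(r : ℤ)))) : ℕ∞) : WithBot ℕ∞) := by
  rcases le_or_gt r n with hrn | hrn
  · refine ShriekDepth.le_depth ψ.toRingHom adj hψ _
      (Groth.Agent.LoccohB.LBC.lbcSelfIso (algebraMap R (MvPolynomial (Fin n) R)) 0) n (-(r : ℤ))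
      (n - r) (by omega) Q (cm_comap n ψ Q hCM) (fun p _ h1 h2 => ?_)
    have := height_ge n ψ hψ Q r htr p h1 h2
    rw [ENat.natCast_sub]
    exact tsub_le_iff_right.2 this
  · have hGE := ShriekDepth.isGE_shriek ψ.toRingHom adj _
      (Groth.Agent.LoccohB.LBC.lbcSelfIso (algebraMap R (MvPolynomial (Fin n) R)) 0) n
    have h0 : IsZero ((homologyFunctor (ModuleCat.{u} A) (-(r : ℤ))).obj
        (Dual2.shriekVia n Rψ (Dual.inD R R))) := isZero_of_isGE _ (-(n : ℤ)) _ (by omega)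
    have h1 : Subsingleton (Dual.HD A (Dual2.shriekVia n Rψ (Dual.inD R R)) (-(r : ℤ))) :=
      ModuleCat.isZero_iff_subsingleton.1 h0
    have h2 : Subsingleton (LocalizedModule Q.primeCompl
        (Dual.HD A (Dual2.shriekVia n Rψ (Dual.inD R R)) (-(r : ℤ)))) :=
      LocalizedModule.subsingleton_iff.2 fun x =>
        ⟨1, Submonoid.one_mem _, Subsingleton.elim _ _⟩
    have h3 : LocCoh.depth (Localization.AtPrime Q) (LocalizedModule Q.primeCompl
        (Dual.HD A (Dual2.shriekVia n Rψ (Dual.inD R R)) (-(r : ℤ)))) = ⊤ := by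
      unfold LocCoh.depth LocCoh.idealDepth
      rw [if_pos (Subsingleton.elim _ _)]
    rw [h3]
    exact le_top

include hψ adj hCM htr in
/-- `H^{-r}(φ^! R)_Q` is `(S_2)`; strong form: at every prime `q ⊆ Q`. -/
theorem le_depth_of_le (q : Ideal A) [q.IsPrime] (hq : q ≤ Q) :
    min (2 : WithBot ℕ∞) (ringKrullDim (Localization.AtPrime q)) ≤
      ((LocCoh.depth (Localization.AtPrime q)
        (LocalizedModule q.primeCompl
          (Dual.HD A (Dual2.shriekVia n Rψ (Dual.inD R R)) (-(r : ℤ)))) : ℕ∞) : WithBot ℕ∞) :=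
  le_depth n ψ hψ adj q (cm_of_le (Q.under R) (q.under R) (Ideal.comap_mono hq) hCM) r
    (htr.mono hq)

include hψ adj hCM htr in
theorem hasSk_two :
    LocCoh.HasSk 2 (Localization.AtPrime Q)
      (LocalizedModule Q.primeCompl
        (Dual.HD A (Dual2.shriekVia n Rψ (Dual.inD R R)) (-(r : ℤ)))) := by
  have h := (Groth.Agent.Ega4A.FlatAtPrime.hasSkAt_iff Q
    (Dual.HD A (Dual2.shriekVia n Rψ (Dual.inD R R)) (-(r : ℤ))) 2).2 (fun q _ hq => by
      refine le_trans ?_ (le_depth_of_le n ψ hψ adj Q hCM r htr q hq)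
      refine min_le_min le_rfl ?_
      exact Module.supportDim_le_ringKrullDim _ _)
  exact h

end Main

end Groth.Agent.Dual.H374.AffinePt
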