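import Groth.Agent.Dual.H374.AffinePt
import Groth.Agent.CycB.SetupLft
import Groth.Agent.Ega1.GenPts
import Groth.Prelude.Def_Dual3

/-!
# The hypotheses at a point of a scheme, read in an affine chart
-/

set_option autoImplicit false

universe u

open CategoryTheory CategoryTheory.Limits AlgebraicGeometry TopologicalSpace

namespace Groth.Agent.Dual.H374.ChartPt

open Groth.Agent.CycB.AffinePt Groth.Agent.CycB.SetupLft

variable {X Y : Scheme.{u}} (f : X ⟶ Y) {V : Y.Opens} {U : X.Opens} (hV : IsAffineOpen V)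
  (hU : IsAffineOpen U) (hUV : U ≤ f ⁻¹ᵁ V)

theorem evK_comap {x : X} (hx : x ∈ U) :
    (evK x hx).comap (f.appLE V U hUV).hom = evK (f x) (hUV hx) := by
  ext a
  have h := RingHom.congr_fun (residueFieldMap_comp_evaluation f hUV hx (hUV hx)) a
  change (f.residueFieldMap x).hom ((Y.evaluation V (f x) (hUV hx)).hom a) =
    (X.evaluation U x hx).hom ((f.appLE V U hUV).hom a) at h
  rw [Ideal.mem_comap, RingHom.mem_ker, RingHom.mem_ker, ← h]
  exact map_eq_zero _

include hV in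
/-- Cohen–Macaulay at `f x`. -/
theorem cm_chart {x : X} (hx : x ∈ U)
    (hCM : LocCoh.IsCohenMacaulayLocalRing (Y.presheaf.stalk (f x))) :
    letI := (f.appLE V U hUV).hom.toAlgebra
    LocCoh.IsCohenMacaulayLocalRing
      (Localization.AtPrime ((evK x hx).under Γ(Y, V))) := by
  let := (f.appLE V U hUV).hom.toAlgebra
  have hpr : (evK (U := V) (f x) (hUV hx)).IsPrime := evK_isPrime (U := V) (x := f x) (hUV hx)
  refine CMPolyLoc.cm_atPrime_congr (evK (f x) (hUV hx)) _ (evK_comap f hUV hx).symm ?_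
  let : Algebra Γ(Y, V) (Y.presheaf.stalk (f x)) := (Y.presheaf.germ V (f x) (hUV hx)).hom.toAlgebra
  have h1 := isLocalization_stalk_evK hV (hUV hx)
  exact Groth.Agent.Ega4A.CMModule.isCohenMacaulayLocalRing_of_ringEquiv
    (IsLocalization.algEquiv (evK (f x) (hUV hx)).primeCompl (Y.presheaf.stalk (f x))
      (Localization.AtPrime (evK (f x) (hUV hx)))).toRingEquiv

include hU in
/-- The prime at the point `hU.fromSpec q`. -/
theorem evK_fromSpec (q : PrimeSpectrum Γ(X, U)) (hq : hU.fromSpec q ∈ U) :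
    evK (hU.fromSpec q) hq = q.asIdeal := by
  rw [evK_eq_primeIdealOf hU]
  have : hU.primeIdealOf ⟨hU.fromSpec q, hq⟩ = q :=
    hU.fromSpec.isOpenEmbedding.injective (hU.fromSpec_primeIdealOf ⟨hU.fromSpec q, hq⟩)
  rw [this]

include hV hU in
/-- The transcendence degree bound. -/
theorem trdegLE_chart {x : X} (hx : x ∈ U) (r : ℕ)
    (htr : ∀ Z : Set X, Z ∈ irreducibleComponents X → x ∈ Z → ∀ ξ : X,
      closure ({ξ} : Set X) = Z → Dual3.resTrdeg f ξ ≤ (r : Cardinal.{u})) :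
    letI := (f.appLE V U hUV).hom.toAlgebra
    AffinePt.TrdegLE Γ(Y, V) (evK x hx) r := by
  let := (f.appLE V U hUV).hom.toAlgebra
  intro 𝔮 h𝔮 hle
  have hp : 𝔮.IsPrime := h𝔮.1.1
  let q : PrimeSpectrum Γ(X, U) := ⟨𝔮, hp⟩
  let ξ : X := hU.fromSpec q
  have hξ : ξ ∈ U := by
    have := Set.mem_range_self (f := hU.fromSpec) q
    rw [hU.range_fromSpec] at this
    exact this
  have hev : evK ξ hξ = 𝔮 := evK_fromSpec hU q hξ
  have hcomp : closure ({ξ} : Set X) ∈ irreducibleComponents X := by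
    rw [Groth.Agent.Ega1.GenPts.closure_mem_irreducibleComponents_iff']
    intro y hy
    have hyU : y ∈ U := hy.mem_open U.2 hξ
    have h1 := evK_le_of_specializes hyU hξ hy
    rw [hev] at h1
    have h2 : evK y hyU = 𝔮 := le_antisymm h1 (h𝔮.2 ⟨evK_isPrime hyU, bot_le⟩ h1)
    have h3 : hU.primeIdealOf ⟨y, hyU⟩ = q := by
      apply PrimeSpectrum.ext
      rw [← evK_eq_primeIdealOf hU hyU]
      exact h2
    have h4 := hU.fromSpec_primeIdealOf ⟨y, hyU⟩
    rw [h3] at h4
    exact h4.symm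
  have hsp : ξ ⤳ x := by
    have h1 : q ⤳ hU.primeIdealOf ⟨x, hx⟩ := by
      rw [← PrimeSpectrum.le_iff_specializes]
      change 𝔮 ≤ (hU.primeIdealOf ⟨x, hx⟩).asIdeal
      rw [← evK_eq_primeIdealOf hU hx]
      exact hle
    have h2 := h1.map hU.fromSpec.continuous
    rw [hU.fromSpec_primeIdealOf ⟨x, hx⟩] at h2
    exact h2
  have key := htr _ hcomp hsp.mem_closure ξ rfl
  have hlies : 𝔮.LiesOver (𝔮.under Γ(Y, V)) := ⟨rfl⟩
  have e := Groth.Agent.CycB.TrdegFrac.trdeg_quotient Γ(Y, V) Γ(X, U) (Y.residueField (f ξ))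
    (X.residueField ξ) (Y.evaluation V (f ξ) (hUV hξ)).hom (X.evaluation U ξ hξ).hom
    (f.residueFieldMap ξ).hom (residueFieldMap_comp_evaluation f hUV hξ (hUV hξ))
    (evaluation_frac hV (hUV hξ)) (evaluation_frac hU hξ) (𝔮.under Γ(Y, V)) 𝔮
    (by
      have := evK_comap f hUV hξ
      rw [hev] at this
      exact this) hev.symm
  rw [← e]
  exact key

end Groth.Agent.Dual.H374.ChartPt
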