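import Groth.Agent.Dual.H374.LowExt
import Groth.Agent.LoccohB.HomBC2
import Groth.Agent.CalgB.DepthLite
import Mathlib.Algebra.Category.ModuleCat.Ext.Basic
import Mathlib.RingTheory.Localization.AtPrime.Basic
import Mathlib.RingTheory.Localization.BaseChange
import Mathlib.RingTheory.LocalRing.ResidueField.Ideal

/-!
# Depth of the lowest cohomology module of a localized complex

`A` Noetherian, `W ∈ D^+(A)`, `q` a prime, `c` an integer such that `H^i(W)_q = 0` for `i < c` and
`Hom(A/q, W[c + j])_q = 0` for `j < n`, with `n ≤ 2`.  Then `depth H^c(W)_q ≥ n`.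
-/

set_option autoImplicit false

universe u

open CategoryTheory CategoryTheory.Limits TensorProduct

attribute [local instance] HasDerivedCategory.standard

namespace Groth.Agent.Dual.H374.DepthTors

open DerivedCategory Abelian IsLocalRing Groth.Agent.LoccohB.FlatLBC Groth.Agent.LoccohB.HomBC
  Groth.Agent.CalgB.DepthLite Groth.Agent.Dual.H374.LowExt

/-- An elementwise torsion module becomes zero after localization (tensor form). -/
theorem subsingleton_tensor {A : Type u} [CommRing A] (q : Ideal A) [q.IsPrime]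
    (B : Type u) [CommRing B] [Algebra A B] [IsLocalization.AtPrime B q]
    (H : Type*) [AddCommGroup H] [Module A H]
    (h : ∀ x : H, ∃ s : A, s ∉ q ∧ s • x = 0) : Subsingleton (B ⊗[A] H) := by
  have h0 : ∀ t : B ⊗[A] H, t = 0 := by
    intro t
    induction t using TensorProduct.induction_on with
    | zero => rfl
    | tmul b x =>
      obtain ⟨s, hs, hsx⟩ := h x
      have hu : IsUnit (algebraMap A B s) :=
        IsLocalization.map_units B (⟨s, hs⟩ : q.primeCompl)
      obtain ⟨v, hv⟩ := hu.exists_left_inv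
      have : b ⊗ₜ[A] x = (s • (v * b)) ⊗ₜ[A] x := by
        rw [Algebra.smul_def, ← mul_assoc, mul_comm (algebraMap A B s) v, hv, one_mul]
      rw [this, TensorProduct.smul_tmul, hsx, tmul_zero]
    | add a b ha hb => rw [ha, hb, add_zero]
  exact ⟨fun a b => by rw [h0 a, h0 b]⟩

/-- `B ⊗ A/q ≅ κ` for `B = A_q`. -/
noncomputable def kappaEquiv {A : Type u} [CommRing A] (q : Ideal A) [q.IsPrime] :
    (Localization.AtPrime q) ⊗[A] (A ⧸ q) ≃ₗ[Localization.AtPrime q]
      ResidueField (Localization.AtPrime q) :=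
  (Algebra.TensorProduct.quotIdealMapEquivTensorQuot
    (Localization.AtPrime q) q).symm.toLinearEquiv.trans
    (Submodule.quotEquivOfEq _ _ (Localization.AtPrime.map_eq_maximalIdeal (I := q)))

theorem le_depth_of_torsion {A : Type u} [CommRing A] [IsNoetherianRing A] (W : Dual.D A)
    (k : ℤ) [W.IsGE k] (q : Ideal A) [q.IsPrime] (c : ℤ)
    (hfin : Module.Finite A (Dual.HD A W c))
    (hlow : ∀ i < c, ∀ x : Dual.HD A W i, ∃ s : A, s ∉ q ∧ s • x = 0)
    (n : ℕ) (hn : n ≤ 2)
    (htors : ∀ j : ℕ, j < n → ∀ f : Dual.inD A (A ⧸ q) ⟶ W⟦c + j⟧,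
      ∃ s : A, s ∉ q ∧ s • f = 0) :
    (n : ℕ∞) ≤ LocCoh.depth (Localization.AtPrime q)
      (LocalizedModule q.primeCompl (Dual.HD A W c)) := by
  let B := Localization.AtPrime q
  have hflat : (algebraMap A B).Flat :=
    RingHom.flat_algebraMap_iff.2 (IsLocalization.flat B q.primeCompl)
  let WB : Dual.D B := (flatBC (algebraMap A B) hflat).obj W
  -- `W_q` lives in degrees `≥ c`
  have hGE : WB.IsGE c := by
    rw [isGE_iff]
    intro i hi
    rw [Groth.Agent.LoccohB.HomBC.isZero_homology_iff]
    have := subsingleton_tensor q B (Dual.HD A W i) (hlow i hi)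
    exact (flatHDEquiv B hflat W i).symm.toEquiv.subsingleton
  -- the module
  let H : ModuleCat.{u} B := (homologyFunctor (ModuleCat.{u} B) c).obj WB
  let eH : H ≃ₗ[B] LocalizedModule q.primeCompl (Dual.HD A W c) :=
    (flatHDEquiv B hflat W c).symm ≪≫ₗ
      (LocalizedModule.isBaseChange q.primeCompl (Dual.HD A W c)).equiv
  have hfinB : Module.Finite B (LocalizedModule q.primeCompl (Dual.HD A W c)) :=
    Module.Finite.of_isLocalizedModule q.primeCompl
      (LocalizedModule.mkLinearMap q.primeCompl (Dual.HD A W c))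
  rw [Groth.Agent.CalgB.DepthLite.le_depth_iff]
  refine EV.iso (N := kk B) eH.toModuleIso ?_
  intro j hj
  -- transfer to the derived category
  have hD : Subsingleton ((singleFunctor (ModuleCat.{u} B) 0).obj (kk B) ⟶
      ((singleFunctor (ModuleCat.{u} B) 0).obj H)⟦(j : ℤ)⟧) := by
    refine subsingleton_lowest WB c (kk B) j (by omega) ?_
    have h1 := subsingleton_tensor q B (Dual.inD A (A ⧸ q) ⟶ W⟦c + (j : ℤ)⟧) (htors j hj)
    have h2 := (homBCModuleEquiv B hflat (ModuleCat.of A (A ⧸ q)) W k (c + j)).symm.toEquiv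
      |>.subsingleton
    let e : (ModuleCat.extendScalars.{u, u, u} (algebraMap A B)).obj (ModuleCat.of A (A ⧸ q)) ≅
        kk B := ((extEquiv A B (ModuleCat.of A (A ⧸ q))).symm ≪≫ₗ kappaEquiv q).toModuleIso
    exact ((singleFunctor (ModuleCat.{u} B) 0).mapIso e).homFromEquiv.symm.subsingleton
  exact (Ext.homLinearEquiv (R := B)).toEquiv.subsingleton

end Groth.Agent.Dual.H374.DepthTors
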