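import Groth.Agent.LoccohA.DzTrunc
import Groth.Agent.LoccohB.FinInj

/-!
# Low Ext groups of the lowest cohomology object

For `K` in degrees `≥ c`, maps from an object `N` in degree `0` to `H^c(K)[j]`, `j ≤ 1`, inject into
maps from `N` to `K[c + j]`; we record the vanishing form.
-/

set_option autoImplicit false

universe w v u

open CategoryTheory CategoryTheory.Limits Pretriangulated

namespace Groth.Agent.Dual.H374.LowExt

open DerivedCategory

variable {C : Type u} [Category.{v} C] [Abelian C] [HasDerivedCategory.{w} C]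

/-- `Hom(X, Y) = 0` for `X` in degrees `≤ a` and `Y` in degrees `≥ b`, `a < b`. -/
theorem eq_zero_of_isLE_of_isGE {X Y : DerivedCategory C} (a b : ℤ) [X.IsLE a] [Y.IsGE b]
    (h : a < b) (f : X ⟶ Y) : f = 0 :=
  TStructure.t.zero_of_isLE_of_isGE f a b h ‹_› ‹_›

theorem isGE_shift' (K : DerivedCategory C) (n a m : ℤ) [K.IsGE n] (h : m + a = n) :
    (K⟦a⟧).IsGE m :=
  TStructure.t.isGE_shift K n a m (by lia)

theorem isLE_single_zero (N : C) : ((singleFunctor C 0).obj N).IsLE 0 := inferInstance

/-- The key vanishing statement. -/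
theorem subsingleton_lowest (K : DerivedCategory C) (c : ℤ) [K.IsGE c] (N : C) (j : ℤ)
    (hj : j ≤ 1) (h : Subsingleton ((singleFunctor C 0).obj N ⟶ K⟦c + j⟧)) :
    Subsingleton ((singleFunctor C 0).obj N ⟶
      ((singleFunctor C 0).obj ((homologyFunctor C c).obj K))⟦j⟧) := by
  have hT0 := TStructure.t.triangleLEGT_distinguished c K
  set T0 := (TStructure.t.triangleLEGT c).obj K with hT0def
  have hT0LE : T0.obj₁ = (TStructure.t.truncLE c).obj K := rfl
  have hG : IsGE T0.obj₃ (c + 1) := by
    change TStructure.t.IsGE ((TStructure.t.truncGT c).obj K) (c + 1)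
    infer_instance
  have h1 : IsGE ((TStructure.t.truncLE c).obj K) c := by
    change TStructure.t.IsGE _ _
    infer_instance
  have h2 : IsLE ((TStructure.t.truncLE c).obj K) c := by
    change TStructure.t.IsLE _ _
    infer_instance
  -- vanishing of `Hom(N, (τ_{≤ c} K)[c + j])`
  have key : ∀ f : (singleFunctor C 0).obj N ⟶ ((TStructure.t.truncLE c).obj K)⟦c + j⟧, f = 0 := by
    intro f
    have hT := Triangle.shift_distinguished _ (inv_rot_of_distTriang _ hT0) (c + j)
    obtain ⟨g, hg⟩ := Triangle.coyoneda_exact₂ _ hT f (h.elim _ _)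
    have hG2 : IsGE (T0.obj₃⟦(-1 : ℤ)⟧) (c + 2) := isGE_shift' _ (c + 1) (-1) (c + 2) (by lia)
    have hG3 : IsGE (T0.obj₃⟦(-1 : ℤ)⟧⟦c + j⟧) (2 - j) :=
      isGE_shift' _ (c + 2) (c + j) (2 - j) (by lia)
    have hN : IsLE ((singleFunctor C 0).obj N) 0 := isLE_single_zero N
    have hg0 : g = 0 := by
      have : IsGE (((shiftFunctor (Triangle (DerivedCategory C)) (c + j)).obj T0.invRotate).obj₁)
        (2 - j) := hG3
      exact eq_zero_of_isLE_of_isGE 0 (2 - j) (by lia) g
    rw [hg, hg0, zero_comp]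
    rfl
  obtain ⟨e⟩ := Groth.Agent.LoccohA.DzTrunc.nonempty_iso_single ((TStructure.t.truncLE c).obj K) c
  have hiso := Groth.Agent.LoccohA.DzTrunc.isIso_homology_truncLE K c c le_rfl
  let e2 : (TStructure.t.truncLE c).obj K ≅ (singleFunctor C c).obj ((homologyFunctor C c).obj K) :=
    e ≪≫ (singleFunctor C c).mapIso
      (asIso ((homologyFunctor C c).map ((TStructure.t.truncLEι c).app K)))
  -- `(single_c H)[c + j] ≅ (single_0 H)[j]`
  let e3 : ((singleFunctor C c).obj ((homologyFunctor C c).obj K))⟦c + j⟧ ≅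
      ((singleFunctor C 0).obj ((homologyFunctor C c).obj K))⟦j⟧ :=
    (shiftFunctorAdd' (DerivedCategory C) c j (c + j) rfl).app _ ≪≫
      (shiftFunctor (DerivedCategory C) j).mapIso
        (((singleFunctors C).shiftIso c 0 c (by simp)).app ((homologyFunctor C c).obj K))
  refine ⟨fun f g => ?_⟩
  have h0 : ∀ f : (singleFunctor C 0).obj N ⟶
      ((singleFunctor C 0).obj ((homologyFunctor C c).obj K))⟦j⟧, f = 0 := by
    intro f
    have := key (f ≫ e3.inv ≫ (shiftFunctor (DerivedCategory C) (c + j)).map e2.inv)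
    have h4 : f = (f ≫ e3.inv ≫ (shiftFunctor (DerivedCategory C) (c + j)).map e2.inv) ≫
        (shiftFunctor (DerivedCategory C) (c + j)).map e2.hom ≫ e3.hom := by
      simp only [Category.assoc]
      rw [← Functor.map_comp_assoc, e2.inv_hom_id, CategoryTheory.Functor.map_id]
      simp
    rw [h4, this, zero_comp]
  rw [h0 f, h0 g]

end Groth.Agent.Dual.H374.LowExt
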