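import Groth.Agent.LoccohA.DepthSpread
import Groth.Agent.Ega4B.DepthBasic
import Groth.Agent.Localalg.Depth2
import Mathlib.RingTheory.Ideal.Height
import Mathlib.RingTheory.Ideal.KrullsHeightTheorem
import Mathlib.RingTheory.Localization.BaseChange

/-!
# Regular sequences in an ideal of large height at a Cohen–Macaulay point

`P` Noetherian, `m` a prime with `P_m` Cohen–Macaulay, `I ≤ m` an ideal such that every prime between
`I` and `m` has height `≥ c`: then `I` contains a sequence of length `c` which is weakly regular on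
`P_m`.  Also the height inequality `ht q + c ≤ ht ψ⁻¹q` for a surjection `ψ : P → A`.
-/

set_option autoImplicit false

universe u

open TensorProduct RingTheory.Sequence

namespace Groth.Agent.Dual.H374.RegSeqCM

/-- Heights along a surjection whose kernel has height `≥ c` near `q`. -/
theorem height_add_le {P : Type*} {A : Type*} [CommRing P] [CommRing A] [IsNoetherianRing P]
    [IsNoetherianRing A]
    (ψ : P →+* A) (hψ : Function.Surjective ψ) (c : ℕ) (q : Ideal A) [q.IsPrime]
    (h : ∀ (p : Ideal P) [p.IsPrime], RingHom.ker ψ ≤ p → p ≤ q.comap ψ → (c : ℕ∞) ≤ p.height) :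
    q.height + c ≤ (q.comap ψ).height := by
  have key : ∀ (n : ℕ) (q' : Ideal A) [q'.IsPrime], q' ≤ q → (n : ℕ∞) ≤ q'.height →
      ((n + c : ℕ) : ℕ∞) ≤ (q'.comap ψ).height := by
    intro n
    induction n with
    | zero =>
      intro q' _ hq' _
      rw [Nat.zero_add]
      refine h (q'.comap ψ) ?_ (Ideal.comap_mono hq')
      intro x hx
      rw [Ideal.mem_comap, (RingHom.mem_ker).1 hx]
      exact q'.zero_mem
    | succ n ih =>
      intro q' hq'p hq' hn
      have hn' : ((n + 1 : ℕ) : ℕ∞) ≤ Order.height (⟨q', hq'p⟩ : PrimeSpectrum A) := by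
        rw [← PrimeSpectrum.height_eq_orderHeight]
        exact hn
      obtain ⟨l, hl, hlen⟩ := Order.exists_series_of_le_height _ hn'
      have h0 : l.length ≠ 0 := by rw [hlen]; exact Nat.succ_ne_zero n
      have hlt : l.eraseLast.last < l.last := l.eraseLast_last_rel_last h0
      have hle : l.eraseLast.last.asIdeal ≤ q := by
        have h3 : l.eraseLast.last ≤ (⟨q', hq'p⟩ : PrimeSpectrum A) := hlt.le.trans_eq hl
        exact le_trans (show l.eraseLast.last.asIdeal ≤ q' from h3) hq'
      have h1 := ih l.eraseLast.last.asIdeal hle (by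
        rw [PrimeSpectrum.height_eq_orderHeight]
        have := Order.length_le_height_last (p := l.eraseLast)
        rw [RelSeries.eraseLast_length, hlen] at this
        exact this)
      have hlt2 : l.eraseLast.last.asIdeal.comap ψ < q'.comap ψ := by
        have h2 : l.eraseLast.last.asIdeal < q' := by
          have : l.eraseLast.last < (⟨q', hq'p⟩ : PrimeSpectrum A) := by
            rw [← hl]; exact hlt
          exact this
        refine lt_of_le_of_ne (Ideal.comap_mono h2.le) (fun h3 => h2.ne ?_)
        exact Ideal.comap_injective_of_surjective ψ hψ h3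
      have h4 := Ideal.height_add_one_le_of_lt_of_isPrime hlt2
      refine le_trans ?_ h4
      push_cast
      rw [add_right_comm]
      push_cast at h1
      gcongr
  have hfin : q.height ≠ ⊤ := Ideal.height_ne_top (Ideal.IsPrime.ne_top inferInstance)
  obtain ⟨n, hn⟩ := ENat.ne_top_iff_exists.1 hfin
  rw [← hn]
  exact_mod_cast key n q le_rfl hn.le

theorem exists_seq {P : Type u} [CommRing P] [IsNoetherianRing P] (m : Ideal P) [m.IsPrime]
    (hCM : LocCoh.IsCohenMacaulayLocalRing (Localization.AtPrime m)) (I : Ideal P) (hI : I ≤ m)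
    (c : ℕ) (h : ∀ (p : Ideal P) [p.IsPrime], I ≤ p → p ≤ m → (c : ℕ∞) ≤ p.height) :
    ∃ fs : List P, (∀ f ∈ fs, f ∈ I) ∧ fs.length = c ∧
      IsWeaklyRegular ((Localization.AtPrime m) ⊗[P] P) fs := by
  let D := Localization.AtPrime m
  let J : Ideal D := I.map (algebraMap P D)
  have hJm : J ≤ IsLocalRing.maximalIdeal D := by
    rw [Ideal.map_le_iff_le_comap]
    intro f hf
    exact (IsLocalization.AtPrime.to_map_mem_maximal_iff D m f).2 (hI hf)
  have hJ : J ≠ ⊤ := fun h => (Ideal.IsPrime.ne_top
    (inferInstance : (IsLocalRing.maximalIdeal D).IsPrime)) (top_le_iff.1 (h ▸ hJm))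
  have hne : J • (⊤ : Submodule D D) ≠ ⊤ := by
    rwa [smul_eq_mul, Ideal.mul_top]
  have hloc : IsLocalRing (D ⧸ J) :=
    haveI : Nontrivial (D ⧸ J) := Ideal.Quotient.nontrivial_iff.2 hJ
    IsLocalRing.of_surjective' (Ideal.Quotient.mk J) Ideal.Quotient.mk_surjective
  have hdim : ringKrullDim (D ⧸ J) + c ≤ ringKrullDim D := by
    rw [← IsLocalRing.maximalIdeal_height_eq_ringKrullDim,
      ← IsLocalRing.maximalIdeal_height_eq_ringKrullDim]
    have h1 := height_add_le (Ideal.Quotient.mk J) Ideal.Quotient.mk_surjective c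
      (IsLocalRing.maximalIdeal (D ⧸ J)) (by
        intro p hp hJp hpm
        rw [Ideal.mk_ker] at hJp
        rw [← IsLocalization.height_under m.primeCompl p]
        have hp' : (p.under P).IsPrime := inferInstance
        refine h (p.under P) (fun x hx => hJp (Ideal.mem_map_of_mem _ hx)) ?_
        have h2 : p ≤ IsLocalRing.maximalIdeal D := IsLocalRing.le_maximalIdeal hp.ne_top
        intro x hx
        rw [← IsLocalization.AtPrime.to_map_mem_maximal_iff D m x]
        exact h2 hx)
    have h2 : (IsLocalRing.maximalIdeal (D ⧸ J)).comap (Ideal.Quotient.mk J) =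
        IsLocalRing.maximalIdeal D := by
      have hl : IsLocalHom (Ideal.Quotient.mk J) :=
        IsLocalHom.of_surjective _ Ideal.Quotient.mk_surjective
      exact IsLocalRing.maximalIdeal_comap (Ideal.Quotient.mk J)
    rw [h2] at h1
    exact_mod_cast h1
  have hdepth : (c : ℕ∞) ≤ LocCoh.idealDepth J D := by
    have h1 := Groth.Agent.Localalg.Depth2.supportDim_eq_add_idealDepth_of_CM J hJ D
      LocCoh.IsCohenMacaulayLocalRing.supportDim_eq_depth
    rw [Module.supportDim_self_eq_ringKrullDim, smul_eq_mul, Ideal.mul_top,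
      Module.supportDim_quotient_eq_ringKrullDim] at h1
    rw [h1] at hdim
    rw [← IsLocalRing.maximalIdeal_height_eq_ringKrullDim] at hdim
    have hfin : (IsLocalRing.maximalIdeal (D ⧸ J)).height ≠ ⊤ :=
      Ideal.height_ne_top (Ideal.IsPrime.ne_top inferInstance)
    obtain ⟨n, hn⟩ := ENat.ne_top_iff_exists.1 hfin
    rw [← hn] at hdim
    generalize LocCoh.idealDepth J D = δ at hdim
    have h4 : ((n : ℕ∞) + (c : ℕ∞)) ≤ (n : ℕ∞) + δ := by exact_mod_cast hdim
    rcases eq_or_ne δ ⊤ with rfl | hδ
    · exact le_top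
    · lift δ to ℕ using hδ
      have h5 : n + c ≤ n + δ := by exact_mod_cast h4
      exact_mod_cast (by omega : c ≤ δ)
  obtain ⟨rs, hlen, hrs, hreg⟩ :=
    (Groth.Agent.Ega4B.DepthBasic.natCast_le_idealDepth_iff hne c).1 hdepth
  obtain ⟨as, has, hass⟩ :=
    Groth.Agent.LoccohA.DepthSpread.exists_list_associated m.primeCompl I rs hrs
  refine ⟨as, has, ?_, ?_⟩
  · have := hass.length_eq
    rw [List.length_map] at this
    rw [← this, hlen]
  · have h1 := Groth.Agent.LoccohA.DepthSpread.isWeaklyRegular_of_associated hass hreg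
    have h2 : IsWeaklyRegular D as := (isWeaklyRegular_map_algebraMap_iff D D as).1 h1
    exact (LinearEquiv.isWeaklyRegular_congr (TensorProduct.rid P D) as).2 h2

end Groth.Agent.Dual.H374.RegSeqCM
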