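import Groth.Agent.Dual.H374.ChartPt
import Groth.Agent.Dual.H342.StalkChart
import Groth.Agent.Dual.H316.StalkTilde
import Groth.Agent.LoccohB.RAdj
import Groth.Agent.PerfB.TildeExact

/-!
# `f^!O_Y` at a point over a Cohen–Macaulay point: from the affine computation to the scheme

`K ∈ D(O_X)` is assumed to be given on affine charts by the algebraic upper shriek `Dual2.shriekVia`.
-/

set_option autoImplicit false

universe u

open CategoryTheory CategoryTheory.Limits AlgebraicGeometry TopologicalSpace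

attribute [local instance] HasDerivedCategory.standard

namespace Groth.Agent.Dual.H374.SchPt

open Groth.Agent.CycB.AffinePt Groth.Agent.CycB.SetupLft

/-- `K` is computed on affine charts by the algebraic upper shriek of the base ring. -/
def IsShriekLocally {X Y : Scheme.{u}} (f : X ⟶ Y)
    [∀ (U V : Scheme.{u}) (j : U ⟶ V) [IsOpenImmersion j],
      PreservesFiniteLimits (Scheme.Modules.restrictFunctor j)]
    (K : DCoh.D X) : Prop :=
  ∀ (R A : CommRingCat.{u}) (_ : IsNoetherianRing R) (jU : Spec A ⟶ X) (_ : IsOpenImmersion jU)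
    (jV : Spec R ⟶ Y) (_ : IsOpenImmersion jV) (φ : R ⟶ A) (_ : jU ≫ f = Spec.map φ ≫ jV) (n : ℕ)
    (ψ : MvPolynomial (Fin n) R →+* A) (_ : Function.Surjective ψ)
    (_ : ψ.comp MvPolynomial.C = φ.hom)
    (_ : DRing.HasLBaseChange (algebraMap R (MvPolynomial (Fin n) R)))
    (Rψ : Dual.D (MvPolynomial (Fin n) R) ⥤ Dual.D A) (_ : DRing.restrictD ψ ⊣ Rψ),
    Nonempty ((DCoh.restrictD jU).obj K ≅
      (DCoh.tildeD A).obj (Dual2.shriekVia n Rψ (Dual.inD R R)))

/-- The main theorem, for `K` given locally by the algebraic upper shriek. -/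
theorem main {X Y : Scheme.{u}} (f : X ⟶ Y) [IsLocallyNoetherian Y] [LocallyOfFiniteType f]
    [∀ (U V : Scheme.{u}) (j : U ⟶ V) [IsOpenImmersion j],
      PreservesFiniteLimits (Scheme.Modules.restrictFunctor j)]
    (K : DCoh.D X) (hK : IsShriekLocally f K) (x : X) (r : ℕ)
    (hCM : LocCoh.IsCohenMacaulayLocalRing (Y.presheaf.stalk (f x)))
    (htr : ∀ Z : Set X, Z ∈ irreducibleComponents X → x ∈ Z → ∀ ξ : X,
      closure ({ξ} : Set X) = Z → Dual3.resTrdeg f ξ ≤ (r : Cardinal.{u})) :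
    (∀ i : ℤ, Nontrivial ((DCoh.HD K i).presheaf.stalk x) → -(r : ℤ) ≤ i) ∧
    LocCoh.HasSk 2 (X.presheaf.stalk x) ((DCoh.HD K (-(r : ℤ))).presheaf.stalk x) ∧
    min (2 : WithBot ℕ∞) (ringKrullDim (X.presheaf.stalk x)) ≤
      ((LocCoh.depth (X.presheaf.stalk x) ((DCoh.HD K (-(r : ℤ))).presheaf.stalk x) : ℕ∞) :
        WithBot ℕ∞) := by
  obtain ⟨V, hV, hxV, -⟩ := exists_isAffineOpen_mem_and_subset (X := Y) (x := f x) (U := ⊤) trivial
  obtain ⟨U, hU, hxU, hUV⟩ := exists_isAffineOpen_mem_and_subset (X := X) (x := x)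
    (U := f ⁻¹ᵁ V) hxV
  obtain ⟨p, rfl⟩ : ∃ p, hU.fromSpec p = x :=
    ⟨hU.primeIdealOf ⟨x, hxU⟩, hU.fromSpec_primeIdealOf ⟨x, hxU⟩⟩
  have hR : IsNoetherianRing Γ(Y, V) := IsLocallyNoetherian.component_noetherian ⟨V, hV⟩
  let alg : Algebra Γ(Y, V) Γ(X, U) := (f.appLE V U hUV).hom.toAlgebra
  have hft : Algebra.FiniteType Γ(Y, V) Γ(X, U) := f.finiteType_appLE hV hU hUV
  obtain ⟨n, ψ, hψ⟩ := Algebra.FiniteType.iff_quotient_mvPolynomial''.1 hft
  have hlbc := Groth.Agent.LoccohB.LBC.hasLBaseChange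
    (algebraMap Γ(Y, V) (MvPolynomial (Fin n) Γ(Y, V)))
  have adj := Groth.Agent.LoccohB.RAdj.coextAdj ψ.toRingHom
  obtain ⟨e⟩ := hK Γ(Y, V) Γ(X, U) hR hU.fromSpec inferInstance hV.fromSpec inferInstance
    (f.appLE V U hUV) (hV.SpecMap_appLE_fromSpec f hU hUV).symm n ψ.toRingHom hψ
    (ψ.comp_algebraMap) hlbc _ adj
  set N := Dual2.shriekVia n (Groth.Agent.LoccohB.RAdj.RCoext ψ.toRingHom)
    (Dual.inD Γ(Y, V) Γ(Y, V)) with hN
  -- the hypotheses in the chart
  have hev : evK (hU.fromSpec p) hxU = PrimeSpectrum.asIdeal (R := Γ(X, U)) p :=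
    ChartPt.evK_fromSpec hU p hxU
  have hCM' : LocCoh.IsCohenMacaulayLocalRing (Localization.AtPrime
      ((PrimeSpectrum.asIdeal (R := Γ(X, U)) p).under Γ(Y, V))) :=
    CMPolyLoc.cm_atPrime_congr _ _ (by rw [hev]) (ChartPt.cm_chart f hV hUV hxU hCM)
  have htr' : AffinePt.TrdegLE Γ(Y, V) (PrimeSpectrum.asIdeal (R := Γ(X, U)) p) r := by
    rw [← hev]
    exact ChartPt.trdegLE_chart f hV hU hUV hxU r htr
  -- the stalks
  have hsemi : ∀ i : ℤ, ∃ (σ : Localization.AtPrime (PrimeSpectrum.asIdeal (R := Γ(X, U)) p) ≃+*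
        X.presheaf.stalk (hU.fromSpec p))
      (τ : LocalizedModule (PrimeSpectrum.asIdeal (R := Γ(X, U)) p).primeCompl
        (Dual.HD Γ(X, U) N i) ≃+ (DCoh.HD K i).presheaf.stalk (hU.fromSpec p)),
      ∀ r m, τ (r • m) = σ r • τ m := by
    intro i
    let e1 : (DCoh.HD K i).restrict hU.fromSpec ≅
        (tilde.functor Γ(X, U)).obj
          ((DerivedCategory.homologyFunctor (ModuleCat.{u} Γ(X, U)) i).obj N) :=
      (H316.StalkTilde.hdRestrict hU.fromSpec K i).symm ≪≫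
        (DerivedCategory.homologyFunctor _ i).mapIso e ≪≫ H316.StalkTilde.hdTilde N i
    exact H342.StalkChart.exists_semilinear Γ(X, U) hU.fromSpec (DCoh.HD K i)
      ((DerivedCategory.homologyFunctor (ModuleCat.{u} Γ(X, U)) i).obj N) e1 p
  refine ⟨fun i hi => ?_, ?_, ?_⟩
  · by_contra hlt
    obtain ⟨σ, τ, h⟩ := hsemi i
    have h1 : Nontrivial (LocalizedModule (PrimeSpectrum.asIdeal (R := Γ(X, U)) p).primeCompl
        (Dual.HD Γ(X, U) N i)) := τ.toEquiv.nontrivial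
    have h2 : Subsingleton (LocalizedModule (PrimeSpectrum.asIdeal (R := Γ(X, U)) p).primeCompl
        (Dual.HD Γ(X, U) N i)) := by
      rw [LocalizedModule.subsingleton_iff]
      intro m
      obtain ⟨s, hs, hsm⟩ := AffinePt.torsion_low n ψ hψ adj _ hCM' r htr' i (not_le.1 hlt) m
      exact ⟨s, hs, hsm⟩
    exact not_subsingleton _ h2
  · obtain ⟨σ, τ, h⟩ := hsemi (-(r : ℤ))
    exact Groth.Agent.Ega4B.SkLocal.hasSk_of_semilinearEquiv 2
      (σ : Localization.AtPrime (PrimeSpectrum.asIdeal (R := Γ(X, U)) p) →+*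
        X.presheaf.stalk (hU.fromSpec p)) σ.bijective τ h
      (AffinePt.hasSk_two n ψ hψ adj _ hCM' r htr')
  · obtain ⟨σ, τ, h⟩ := hsemi (-(r : ℤ))
    have h1 := AffinePt.le_depth n ψ hψ adj _ hCM' r htr'
    rw [Groth.Agent.Ega4B.DepthTransfer.depth_eq
      (σ : Localization.AtPrime (PrimeSpectrum.asIdeal (R := Γ(X, U)) p) →+*
        X.presheaf.stalk (hU.fromSpec p)) τ h σ.surjective,
      ← ringKrullDim_eq_of_ringEquiv σ]
    exact h1

end Groth.Agent.Dual.H374.SchPt
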