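import Groth.Agent.Dual.H374.DepthTors
import Groth.Agent.Dual.H374.RegSeqCM
import Groth.Agent.LoccohB.ShriekVan
import Groth.Agent.LoccohB.RAdjFin

/-!
# Vanishing and depth of the cohomology of `RHom_P(A, P)[n]` at a prime over a Cohen–Macaulay point

`P` Noetherian, `ψ : P → A` surjective, `R_ψ` a right adjoint of restriction of scalars, `q` a prime of
`A` with preimage `m`, `P_m` Cohen–Macaulay, every prime between `ker ψ` and `m` of height `≥ c`.
Then `H^i(R_ψ(P)[n])_q = 0` for `n + i < c`, and for `n + i = c`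
`min 2 (dim A_q) ≤ depth H^i(R_ψ(P)[n])_q`.
-/

set_option autoImplicit false

universe u

open CategoryTheory CategoryTheory.Limits TensorProduct

attribute [local instance] HasDerivedCategory.standard

namespace Groth.Agent.Dual.H374.ShriekDepth

open DerivedCategory Groth.Agent.LoccohB.LBC Groth.Agent.LoccohB.ShriekVan

variable {P A : Type u} [CommRing P] [IsNoetherianRing P] [CommRing A] (ψ : P →+* A)

/-- `Hom_{D(P)}(X, P[j])_m = 0` for `X` killed by `I`, `I ≤ m`, `P_m` Cohen–Macaulay, if all primes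
between `I` and `m` have height `≥ c > j`. -/
theorem hom_torsion_CM (K : Dual.D P) (eK : K ≅ Dual.inD P P) (m : Ideal P) [m.IsPrime]
    (hCM : LocCoh.IsCohenMacaulayLocalRing (Localization.AtPrime m)) (I : Ideal P) (hI : I ≤ m)
    (c : ℕ) (h : ∀ (p : Ideal P) [p.IsPrime], I ≤ p → p ≤ m → (c : ℕ∞) ≤ p.height)
    (X : ModuleCat.{u} P) (hX : ∀ f ∈ I, ∀ x : X, f • x = 0) (j : ℤ) (hj : j < c)
    (f : (singleFunctor (ModuleCat.{u} P) 0).obj X ⟶ K⟦j⟧) : ∃ s : P, s ∉ m ∧ s • f = 0 := by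
  obtain ⟨fs, hfs, hlen, hreg⟩ := RegSeqCM.exists_seq m hCM I hI c h
  obtain ⟨s, hs, hsf⟩ := hom_torsion m X fs (fun g hg => hX g (hfs g hg)) (ModuleCat.of P P)
    hreg j (by rw [hlen]; exact hj) (f ≫ (CategoryTheory.shiftFunctor _ j).map eK.hom)
  refine ⟨s, hs, ?_⟩
  rw [← Linear.smul_comp] at hsf
  have h1 : s • f = ((s • f) ≫ (CategoryTheory.shiftFunctor _ j).map eK.hom) ≫
      (CategoryTheory.shiftFunctor _ j).map eK.inv := by
    rw [Category.assoc, ← CategoryTheory.Functor.map_comp, eK.hom_inv_id,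
      CategoryTheory.Functor.map_id, Category.comp_id]
  rw [h1, hsf, Limits.zero_comp]

variable {Rψ : Dual.D P ⥤ Dual.D A} (adj : DRing.restrictD ψ ⊣ Rψ)

include adj in
/-- Vanishing at `q` below the height of the kernel. -/
theorem torsion_low (K : Dual.D P) (eK : K ≅ Dual.inD P P) (n i : ℤ) (c : ℕ) (hi : n + i < c)
    (q : Ideal A) [q.IsPrime]
    (hCM : LocCoh.IsCohenMacaulayLocalRing (Localization.AtPrime (q.comap ψ)))
    (h : ∀ (p : Ideal P) [p.IsPrime], RingHom.ker ψ ≤ p → p ≤ q.comap ψ → (c : ℕ∞) ≤ p.height)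
    (x : Dual.HD A ((Rψ.obj K)⟦n⟧) i) : ∃ s : A, s ∉ q ∧ s • x = 0 := by
  refine Groth.Agent.LoccohB.ShriekHD.torsion_HD ψ adj K n i (n + i) rfl q (fun f => ?_) x
  obtain ⟨s, hs, hsf⟩ := hom_torsion_CM K eK (q.comap ψ) hCM (RingHom.ker ψ) (fun x hx => by
    rw [Ideal.mem_comap, (RingHom.mem_ker).1 hx]
    exact q.zero_mem) c h
    ((ModuleCat.restrictScalars.{u} ψ).obj (ModuleCat.of A A)) (fun g hg (x : A) => by
      change ψ g * x = 0
      rw [(RingHom.mem_ker).1 hg, zero_mul]) (n + i) hi f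
  exact ⟨s, hs, hsf⟩

include adj in
/-- Maps `A/q → R_ψ(P)[n][i]` are torsion at `q` for `n + i < ht (ψ⁻¹ q)`. -/
theorem torsion_quot (K : Dual.D P) (eK : K ≅ Dual.inD P P) (n i : ℤ) (q : Ideal A) [q.IsPrime]
    (hCM : LocCoh.IsCohenMacaulayLocalRing (Localization.AtPrime (q.comap ψ))) (c : ℕ)
    (hc : (c : ℕ∞) ≤ (q.comap ψ).height) (hi : n + i < c)
    (f : Dual.inD A (A ⧸ q) ⟶ ((Rψ.obj K)⟦n⟧)⟦i⟧) : ∃ s : A, s ∉ q ∧ s • f = 0 := by
  obtain ⟨e⟩ := radj_shift ψ adj K (n + i)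
  let e' : ((Rψ.obj K)⟦n⟧)⟦i⟧ ≅ Rψ.obj (K⟦n + i⟧) :=
    ((shiftFunctorAdd' (Dual.D A) n i (n + i) rfl).app (Rψ.obj K)).symm ≪≫ e.symm
  let r := Groth.Agent.LoccohB.RAdjFin.restrictDSingle ψ 0 (ModuleCat.of A (A ⧸ q))
  let g : (DRing.restrictD ψ).obj (Dual.inD A (A ⧸ q)) ⟶ K⟦n + i⟧ :=
    (adj.homEquiv _ _).symm (f ≫ e'.hom)
  obtain ⟨s, hs, hsg⟩ := hom_torsion_CM K eK (q.comap ψ) hCM (q.comap ψ) le_rfl c
    (fun p _ h1 h2 => by rwa [le_antisymm h2 h1])
    ((ModuleCat.restrictScalars.{u} ψ).obj (ModuleCat.of A (A ⧸ q))) (fun g hg (x : A ⧸ q) => by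
      change ψ g • x = 0
      obtain ⟨y, rfl⟩ := Ideal.Quotient.mk_surjective x
      rw [← Ideal.Quotient.mk_eq_mk, ← Submodule.Quotient.mk_smul, Submodule.Quotient.mk_eq_zero,
        smul_eq_mul]
      exact q.mul_mem_right _ hg) (n + i) hi (r.inv ≫ g)
  refine ⟨ψ s, hs, ?_⟩
  have h1 : s • g = 0 := by
    have : s • g = r.hom ≫ (s • (r.inv ≫ g)) := by
      rw [Linear.comp_smul, Iso.hom_inv_id_assoc]
    rw [this, hsg, comp_zero]
  have h2 : f ≫ e'.hom = adj.homEquiv _ _ g := by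
    rw [Equiv.apply_symm_apply]
  have h3 : ψ s • (f ≫ e'.hom) = 0 := by
    rw [h2, ← radj_homEquiv_smul, h1, Adjunction.homEquiv_unit]
    have := adj.right_adjoint_additive
    rw [Functor.map_zero, comp_zero]
  have h4 : ψ s • f = (ψ s • (f ≫ e'.hom)) ≫ e'.inv := by
    rw [Linear.smul_comp, Category.assoc, e'.hom_inv_id, Category.comp_id]
  rw [h4, h3, zero_comp]

omit [IsNoetherianRing P] in
include adj in
theorem isGE_shriek (K : Dual.D P) (eK : K ≅ Dual.inD P P) (n : ℤ) :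
    ((Rψ.obj K)⟦n⟧).IsGE (-n) := by
  have h0 : DerivedCategory.IsGE (Dual.inD P P) 0 := by
    change DerivedCategory.IsGE ((singleFunctor (ModuleCat.{u} P) 0).obj _) 0
    infer_instance
  have h1 : DerivedCategory.IsGE K 0 :=
    (TStructure.t : Triangulated.TStructure (Dual.D P)).isGE_of_iso eK.symm 0
  have h2 := Groth.Agent.LoccohB.RAdjFin.isGE_radj adj K 0
  exact (TStructure.t : Triangulated.TStructure (Dual.D A)).isGE_shift _ 0 n _ (by lia)

include adj in
theorem finite_shriek (hψ : Function.Surjective ψ) (K : Dual.D P) (eK : K ≅ Dual.inD P P)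
    (n i : ℤ) : Module.Finite A (Dual.HD A ((Rψ.obj K)⟦n⟧) i) := by
  have h0 : DerivedCategory.IsGE (Dual.inD P P) 0 := by
    change DerivedCategory.IsGE ((singleFunctor (ModuleCat.{u} P) 0).obj _) 0
    infer_instance
  have h1 : DerivedCategory.IsGE K 0 :=
    (TStructure.t : Triangulated.TStructure (Dual.D P)).isGE_of_iso eK.symm 0
  have hfin : ∀ j : ℤ, Module.Finite P (Dual.HD P K j) := by
    intro j
    have e1 : Dual.HD P K j ≃ₗ[P] Dual.HD P (Dual.inD P P) j :=
      ((homologyFunctor (ModuleCat.{u} P) j).mapIso eK).toLinearEquiv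
    have h2 : Module.Finite P (Dual.HD P (Dual.inD P P) j) := by
      rcases eq_or_ne j 0 with rfl | hj
      · let e2 : Dual.HD P (Dual.inD P P) 0 ≃ₗ[P] P :=
          ((singleFunctorCompHomologyFunctorIso (ModuleCat.{u} P) 0).app
            (ModuleCat.of P P)).toLinearEquiv
        exact Module.Finite.equiv e2.symm
      · have : IsZero ((homologyFunctor (ModuleCat.{u} P) j).obj (Dual.inD P P)) := by
          rcases lt_or_gt_of_ne hj with h | h
          · exact isZero_of_isGE _ 0 j h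
          · have : DerivedCategory.IsLE (Dual.inD P P) 0 := by
              change DerivedCategory.IsLE ((singleFunctor (ModuleCat.{u} P) 0).obj _) 0
              infer_instance
            exact isZero_of_isLE _ 0 j h
        have := ModuleCat.isZero_iff_subsingleton.1 this
        change Module.Finite P ((homologyFunctor (ModuleCat.{u} P) j).obj (Dual.inD P P))
        infer_instance
    exact Module.Finite.equiv e1.symm
  have h3 := Groth.Agent.LoccohB.RAdjFin.finite_HD_radj adj (RingHom.Finite.of_surjective ψ hψ)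
    K 0 hfin (n + i)
  let e : Dual.HD A ((Rψ.obj K)⟦n⟧) i ≃ₗ[A] Dual.HD A (Rψ.obj K) (n + i) :=
    (((homologyFunctor (ModuleCat.{u} A) 0).shiftIso n i (n + i) rfl).app
      (Rψ.obj K)).toLinearEquiv
  exact Module.Finite.equiv e.symm

include adj in
/-- The depth estimate. -/
theorem le_depth (hψ : Function.Surjective ψ) (K : Dual.D P) (eK : K ≅ Dual.inD P P) (n i : ℤ)
    (c : ℕ) (hc : n + i = c) (q : Ideal A) [q.IsPrime]
    (hCM : LocCoh.IsCohenMacaulayLocalRing (Localization.AtPrime (q.comap ψ)))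
    (h : ∀ (p : Ideal P) [p.IsPrime], RingHom.ker ψ ≤ p → p ≤ q.comap ψ → (c : ℕ∞) ≤ p.height) :
    min (2 : WithBot ℕ∞) (ringKrullDim (Localization.AtPrime q)) ≤
      ((LocCoh.depth (Localization.AtPrime q)
        (LocalizedModule q.primeCompl (Dual.HD A ((Rψ.obj K)⟦n⟧) i)) : ℕ∞) : WithBot ℕ∞) := by
  have hA : IsNoetherianRing A := isNoetherianRing_of_surjective P A ψ hψ
  have hdim := RegSeqCM.height_add_le ψ hψ c q h
  have hfin1 : (q.comap ψ).height ≠ ⊤ := Ideal.height_ne_top (Ideal.IsPrime.ne_top inferInstance)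
  have hfin2 : q.height ≠ ⊤ := Ideal.height_ne_top (Ideal.IsPrime.ne_top inferInstance)
  obtain ⟨d, hd⟩ := ENat.ne_top_iff_exists.1 hfin1
  obtain ⟨t, ht⟩ := ENat.ne_top_iff_exists.1 hfin2
  rw [← hd, ← ht] at hdim
  have hdim' : t + c ≤ d := by exact_mod_cast hdim
  have hGE := isGE_shriek ψ adj K eK n
  have key := DepthTors.le_depth_of_torsion ((Rψ.obj K)⟦n⟧) (-n) q i
    (finite_shriek ψ adj hψ K eK n i)
    (fun i' hi' x => torsion_low ψ adj K eK n i' c (by omega) q hCM h x)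
    (min 2 t) (min_le_left _ _)
    (fun j hj f => torsion_quot ψ adj K eK n (i + j) q hCM (c + t)
      (by rw [← hd]; exact_mod_cast (by omega : c + t ≤ d)) (by push_cast; omega) f)
  rw [IsLocalization.AtPrime.ringKrullDim_eq_height q, ← ht]
  refine le_trans ?_ (WithBot.coe_le_coe.2 key)
  rcases le_total 2 t with h2 | h2
  · rw [min_eq_left h2]
    exact min_le_left _ _
  · rw [min_eq_right h2]
    exact min_le_right _ _

end Groth.Agent.Dual.H374.ShriekDepth
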