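import Groth.Agent.Dual.H374.SchPt
import Groth.Agent.Dual.H349.Bridge

/-!
# `f^! O_Y` at a point over a Cohen–Macaulay point of `Y`

Vanishing below `-r`, `(S_2)`, and the strong depth estimate
`min 2 (dim O_{X,x}) ≤ depth H^{-r}(f^! O_Y)_x`.
-/

set_option autoImplicit false

universe u

open CategoryTheory CategoryTheory.Limits AlgebraicGeometry TopologicalSpace

attribute [local instance] HasDerivedCategory.standard

namespace Groth.Agent.Dual.H374.ShriekPt

variable {S X Y : Scheme.{u}} [IsNoetherian S] (q : Y ⟶ S) [_root_.Dual3.IsSepFT q] (f : X ⟶ Y)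
  (c : DEt.Compactification f) [DCoh.HasRpush c.fbar] (hc : DCoh.RpushPreservesQCoh c.fbar)
  (a : DCoh.DQCoh Y ⥤ DCoh.DQCoh c.Xbar) (adj : DCoh.RpushQ c.fbar hc ⊣ a)
  [∀ (U V : Scheme.{u}) (j : U ⟶ V) [IsOpenImmersion j],
    PreservesFiniteLimits (Scheme.Modules.restrictFunctor j)]

include adj q in
theorem isShriekLocally (O : DCoh.DQCoh Y)
    (hO : Nonempty (O.obj ≅ DCoh.inD Y (Coh.structureModule Y))) :
    SchPt.IsShriekLocally f ((_root_.Dual3.shriekC c a).obj O) := by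
  intro R A _ jU _ jV _ φ h n ψ hψ hψC _ Rψ adjψ
  exact Groth.Agent.Dual.H349.Bridge.shriekC_bridge q f c hc a adj O hO jU jV φ h n ψ hψ hψC adjψ

include adj q in
/-- `f^! O_Y` at a point over a Cohen–Macaulay point. -/
theorem main (O : DCoh.DQCoh Y) (hO : Nonempty (O.obj ≅ DCoh.inD Y (Coh.structureModule Y)))
    (x : X) (r : ℕ)
    (hCM : LocCoh.IsCohenMacaulayLocalRing (Y.presheaf.stalk (f x)))
    (htr : ∀ Z : Set X, Z ∈ irreducibleComponents X → x ∈ Z → ∀ ξ : X,
      closure ({ξ} : Set X) = Z → _root_.Dual3.resTrdeg f ξ ≤ (r : Cardinal.{u})) :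
    (∀ i : ℤ, Nontrivial ((DCoh.HD ((_root_.Dual3.shriekC c a).obj O) i).presheaf.stalk x) →
      -(r : ℤ) ≤ i) ∧
    LocCoh.HasSk 2 (X.presheaf.stalk x)
      ((DCoh.HD ((_root_.Dual3.shriekC c a).obj O) (-(r : ℤ))).presheaf.stalk x) ∧
    min (2 : WithBot ℕ∞) (ringKrullDim (X.presheaf.stalk x)) ≤
      ((LocCoh.depth (X.presheaf.stalk x)
        ((DCoh.HD ((_root_.Dual3.shriekC c a).obj O) (-(r : ℤ))).presheaf.stalk x) : ℕ∞) :
        WithBot ℕ∞) := by
  have : IsNoetherian Y := Groth.Agent.LoccohB.AdStruct.isNoetherian_of_finiteType q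
  have : LocallyOfFiniteType f := by
    rw [← c.fac]
    infer_instance
  exact SchPt.main f _ (isShriekLocally q f c hc a adj O hO) x r hCM htr

end Groth.Agent.Dual.H374.ShriekPt
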